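import Cfsg.Agent.Mod.DadeD
import Cfsg.Agent.Mod.Lift
import Cfsg.Agent.Char.MatRep
import Cfsg.Agent.Char.CliffordBasic

/-!
# The Dade–Glauberman–Nagao correspondence for an abelian `p`-group: factor sets agree
-/

set_option autoImplicit false
set_option linter.unusedSectionVars false
set_option linter.unusedVariables false

namespace Cfsg

open Matrix
open scoped ComplexConjugate

section Alg
variable {k : Type*} [Field k] {n m : Type*} [Fintype n] [DecidableEq n] [Fintype m] [DecidableEq m]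

theorem exists_rank_factorization {F : Matrix n n k} (hF : F * F = F) :
    ∃ (r : ℕ) (P : Matrix n (Fin r) k) (Q : Matrix (Fin r) n k), Q * P = 1 ∧ P * Q = F := by
  let W := LinearMap.range (toLin' F)
  let b := Module.finBasis k W
  refine ⟨_, LinearMap.toMatrix b (Pi.basisFun k n) W.subtype,
    LinearMap.toMatrix (Pi.basisFun k n) b (toLin' F).rangeRestrict, ?_, ?_⟩
  · rw [← LinearMap.toMatrix_comp, ← LinearMap.toMatrix_id b]
    congr 1
    ext1 ⟨_, v, rfl⟩
    apply Subtype.ext
    simp [hF]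
  · rw [← LinearMap.toMatrix_comp, LinearMap.subtype_comp_codRestrict, LinearMap.toMatrix_eq_toMatrix',
      LinearMap.toMatrix'_toLin']

/-- The Schur orthogonality relations for a matrix representation. -/
def IsOrthRep {K : Type*} [CommRing K] {N : Type*} [Group N] [Fintype N]
    (X : N →* Matrix n n K) : Prop :=
  ∀ y, (Fintype.card n : K) • ∑ x, (y * X x⁻¹).trace • X x = (Fintype.card N : K) • y

variable {N C E H D : Type*} [Group N] [Fintype N] [Group C] [Fintype C] [Group E] [Group H]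
  [CommGroup D] [Fintype D]

theorem IsOrthRep.card_ne_zero {X : N →* Matrix n n k} (h : IsOrthRep X) [Nonempty n]
    (hN : (Fintype.card N : k) ≠ 0) : (Fintype.card n : k) ≠ 0 := fun h0 => by
  have := h 1
  rw [h0, zero_smul, eq_comm, smul_eq_zero] at this
  exact this.elim hN one_ne_zero

theorem IsOrthRep.eq_of_trace {X : N →* Matrix n n k} (h : IsOrthRep X)
    (hN : (Fintype.card N : k) ≠ 0) {y y' : Matrix n n k}
    (hy : ∀ x, (y * X x).trace = (y' * X x).trace) : y = y' := by
  apply smul_right_injective _ hN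
  simp only [← h y, ← h y', hy]

theorem isOrthRep_of_isIrr {X : N →* Matrix n n ℂ}
    (hX : IsIrrCharacter N fun g => (X g).trace) : IsOrthRep X := by
  have key : ∀ y : Matrix n n ℂ, (Fintype.card n : ℂ) • ∑ x, X x * y * X x⁻¹ =
      ((Fintype.card N : ℂ) * y.trace) • (1 : Matrix n n ℂ) := by
    intro y
    obtain ⟨c, hc⟩ := matrix_schur hX (T := ∑ x, X x * y * X x⁻¹) fun g => by
      rw [Finset.sum_mul, Finset.mul_sum, ← Equiv.sum_comp (Equiv.mulLeft g)]
      refine Finset.sum_congr rfl fun x _ => ?_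
      simp only [Equiv.coe_mulLeft, mul_assoc, ← map_mul, _root_.mul_inv_rev, inv_mul_cancel,
        mul_one]
      rw [map_mul, mul_assoc]
    have := congrArg trace hc
    rw [trace_sum, trace_smul, trace_one, Finset.sum_congr rfl fun x _ => show
      (X x * y * X x⁻¹).trace = y.trace by
        rw [trace_mul_comm, ← mul_assoc, ← map_mul, inv_mul_cancel, map_one, one_mul]] at this
    rw [hc, smul_smul, mul_comm, ← smul_eq_mul, ← this]
    simp
  intro y
  ext a b
  rw [matrix_eq_sum_single y]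
  have h1 : ∀ i j, (Fintype.card n : ℂ) * ∑ x, X x⁻¹ j i * X x a b =
      (Fintype.card N : ℂ) * single i j (1 : ℂ) a b := by
    intro i j
    have := congrFun (congrFun (key (single b j 1)) a) i
    simp only [Matrix.smul_apply, Matrix.sum_apply, smul_eq_mul, mul_apply, single_apply, one_apply,
      trace, diag] at this ⊢
    simp only [ite_and, mul_ite, mul_one, mul_zero, Finset.sum_ite_eq, Finset.mem_univ, if_true,
      ite_mul, zero_mul] at this ⊢
    rw [Finset.sum_congr rfl fun x _ => mul_comm _ _, this]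
    simp only [eq_comm (a := a)]
  simp only [Finset.sum_mul, trace_sum, Matrix.smul_apply, Matrix.sum_apply, smul_eq_mul, trace_single_mul,
    Finset.mul_sum] at h1 ⊢
  rw [Finset.sum_comm]
  refine Finset.sum_congr rfl fun i _ => ?_
  rw [Finset.sum_comm]
  refine Finset.sum_congr rfl fun j _ => ?_
  have := congrArg (y i j * ·) (h1 i j)
  simp only [Finset.mul_sum] at this
  rw [show single i j (y i j) a b = y i j * single i j (1 : ℂ) a b by simp [single_apply],
    mul_left_comm, ← this]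
  exact Finset.sum_congr rfl fun x _ => by ring

theorem IsOrthRep.of_map {K L : Type*} [CommRing K] [CommRing L] {φ : K →+* L}
    (hφ : Function.Injective φ) {X : N →* Matrix n n K} (h : IsOrthRep (matMap X φ)) :
    IsOrthRep X := fun y => by
  apply Matrix.map_injective hφ
  have := h (y.map φ)
  ext a b
  have := congrFun (congrFun this a) b
  simpa [matMap_apply, Matrix.sum_apply, trace, mul_apply] using this

theorem IsOrthRep.map {K L : Type*} [CommRing K] [CommRing L] {φ : K →+* L}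
    (hφ : Function.Surjective φ) {X : N →* Matrix n n K} (h : IsOrthRep X) :
    IsOrthRep (matMap X φ) := fun y => by
  choose s hs using hφ
  obtain ⟨y, rfl⟩ : ∃ y' : Matrix n n K, y'.map φ = y := ⟨y.map s, by ext; simp [hs]⟩
  ext a b
  have := congrArg φ (congrFun (congrFun (h y) a) b)
  simpa [matMap_apply, Matrix.sum_apply, trace, mul_apply] using this

variable {p : ℕ} [hp : Fact p.Prime] [CharP k p]

theorem exists_linear_of_isOrthRep (hD : IsPGroup p D) {f : N →* E} [IsNormalEmb f] {i : H →* E}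
    {a : C →* H} [IsNormalEmb a] {j : C →* N} (hfac : ∀ c, i (a c) = f (j c)) {d : D →* E}
    (hd : Function.Injective d) {α : H →* MulAut D} (hα : ∀ h g, i h * d g = d (α h g) * i h)
    (hj : ∀ x, (∀ g, d g * f x = f x * d g) ↔ x ∈ j.range)
    {X : E →* Matrix n n k} {Y : H →* Matrix m m k} (hX : IsOrthRep (X.comp f))
    (hY : IsOrthRep (Y.comp a)) (hN : (Fintype.card N : k) ≠ 0) (hC : (Fintype.card C : k) ≠ 0)
    (he : ∑ c, (Y (a c)⁻¹).trace * (X (f (j c))).trace ≠ 0) :
    ∃ μ : H →* k, (∀ c, μ (a c) = 1) ∧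
      ∀ h l₁ l₂, α h = 1 → X (i h) = l₁ • 1 → Y h = l₂ • 1 → μ h * l₂ = l₁ := by
  obtain hm | ⟨⟨o⟩⟩ := isEmpty_or_nonempty m
  · simp [trace] at he
  haveI : Nonempty m := ⟨o⟩
  have hm := hY.card_ne_zero hC
  set κ : k := (Fintype.card C : k)⁻¹ * Fintype.card m with hκ
  have hκ0 : κ ≠ 0 := mul_ne_zero (inv_ne_zero hC) hm
  let S : Matrix m m k →ₗ[k] Matrix n n k := κ • ∑ c,
    ((traceLinearMap m k k) ∘ₗ LinearMap.mulRight k (Y (a c)⁻¹)).smulRight (X (f (j c)))
  have hS : ∀ y, S y = κ • ∑ c, (y * Y (a c)⁻¹).trace • X (f (j c)) := fun y => by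
    simp [S, LinearMap.sum_apply]
  have hY' : ∀ y, κ • ∑ c, (y * Y (a c)⁻¹).trace • Y (a c) = y := fun y => by
    have := hY y
    simp only [MonoidHom.comp_apply, map_inv] at this
    rw [hκ, mul_smul, this, smul_smul, inv_mul_cancel₀ hC, one_smul]
  have hS1 : ∀ y c, S y * X (f (j c)) = S (y * Y (a c)) := fun y c => by
    rw [hS, hS, smul_mul_assoc, Finset.sum_mul]
    congr 1
    conv_rhs => rw [← Equiv.sum_comp (Equiv.mulRight c)]
    refine Finset.sum_congr rfl fun x _ => ?_
    simp only [Equiv.coe_mulRight, map_mul, smul_mul_assoc, _root_.mul_inv_rev, mul_assoc]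
    rw [← mul_assoc (Y (a c)), ← map_mul Y, mul_inv_cancel, map_one, one_mul]
  have hS2 : ∀ y y', S y * S y' = S (y * y') := fun y y' => by
    conv_rhs => rw [← hY' y']
    rw [hS y']
    simp only [mul_smul_comm, Finset.mul_sum, map_smul, map_sum, hS1]
  have hS3 : ∀ h y, X (i h) * S (y * Y h) = S (Y h * y) * X (i h) := fun h y => by
    rw [hS, hS, smul_mul_assoc, mul_smul_comm, Finset.sum_mul, Finset.mul_sum]
    congr 1
    conv_rhs => rw [← Equiv.sum_comp (conjAut a h).toEquiv]
    refine Finset.sum_congr rfl fun x _ => ?_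
    simp only [MulEquiv.toEquiv_eq_coe, EquivLike.coe_coe, ← hfac, map_conjAut, mul_smul_comm,
      smul_mul_assoc, ← map_mul, inv_mul_cancel_right]
    congr 1
    rw [mul_assoc (Y h), trace_mul_comm (Y h)]
    simp only [mul_assoc, ← map_mul]
    congr 3; group
  have hS4 : ∀ g y, X (d g) * S y = S y * X (d g) := fun g y => by
    rw [hS, smul_mul_assoc, mul_smul_comm, Finset.sum_mul, Finset.mul_sum]
    congr 1
    refine Finset.sum_congr rfl fun x _ => ?_
    rw [smul_mul_assoc, mul_smul_comm, ← map_mul, ← map_mul, (hj _).2 ⟨x, rfl⟩]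
  have hYi : ∀ h, Y h⁻¹ * Y h = 1 := fun h => by rw [← map_mul, inv_mul_cancel, map_one]
  have hYi' : ∀ h, Y h * Y h⁻¹ = 1 := fun h => by rw [← map_mul, mul_inv_cancel, map_one]
  have hS5 : ∀ h y, X (i h) * S y = S (Y h * y * Y h⁻¹) * X (i h) := fun h y => by
    rw [mul_assoc (Y h), ← hS3, mul_assoc y, hYi, mul_one]
  set F := S (single o o 1) with hF
  have hFF : F * F = F := by rw [hF, hS2, single_mul_single_same, one_mul]
  obtain ⟨r, P, Q, hQP, hPQ⟩ := exists_rank_factorization hFF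
  have hFP : F * P = P := by rw [← hPQ, Matrix.mul_assoc, hQP, Matrix.mul_one]
  have hQF : Q * F = Q := by rw [← hPQ, ← Matrix.mul_assoc, hQP, Matrix.one_mul]
  have hr : (Fintype.card (Fin r) : k) ≠ 0 := by
    rw [← trace_one, ← hQP, trace_mul_comm, hPQ]
    intro h0
    have h1 : ∀ t, (S (single t t 1)).trace = 0 := fun t => by
      rw [← h0, hF, ← one_mul (1 : k), ← single_mul_single_same (j := o), ← hS2, trace_mul_comm,
        hS2, single_mul_single_same, one_mul]
    have h2 : (S 1).trace = 0 := by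
      rw [← Matrix.sum_single_one, map_sum, trace_sum, Finset.sum_eq_zero fun t _ => h1 t]
    rw [hS, trace_smul, trace_sum, smul_eq_mul] at h2
    simp only [one_mul, trace_smul, smul_eq_mul] at h2
    exact mul_ne_zero hκ0 he h2
  have cut : ∀ A B : Matrix n n k, A * F = F * A → Q * A * P * (Q * B * P) = Q * (A * B) * P := by
    intro A B h
    simp only [Matrix.mul_assoc]
    rw [← Matrix.mul_assoc P, hPQ, ← Matrix.mul_assoc A, h, Matrix.mul_assoc F,
      ← Matrix.mul_assoc Q, hQF]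
  have cut' : ∀ A B : Matrix n n k, B * F = F * B → Q * A * P * (Q * B * P) = Q * (A * B) * P := by
    intro A B h
    simp only [Matrix.mul_assoc]
    rw [← Matrix.mul_assoc P, hPQ, ← Matrix.mul_assoc F, ← h, Matrix.mul_assoc B, hFP]
  have hS6 : Q * S 1 * P = 1 := by
    rw [← hQF, Matrix.mul_assoc Q, hF, hS2, mul_one, ← hF, hQF, hQP]
  let u : D →* Matrix (Fin r) (Fin r) k :=
    { toFun := fun g => Q * X (d g) * P
      map_one' := by simp [hQP]
      map_mul' := fun g g' => by rw [cut _ _ (hS4 _ _), map_mul, map_mul] }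
  have hwF : ∀ h, S (Y h⁻¹) * X (i h) * F = F * (S (Y h⁻¹) * X (i h)) := fun h => by
    rw [mul_assoc, hF, hS5, ← mul_assoc, ← mul_assoc, hS2, hS2, ← mul_assoc, ← mul_assoc, hYi,
      one_mul]
  let w : H →* Matrix (Fin r) (Fin r) k :=
    { toFun := fun h => Q * (S (Y h⁻¹) * X (i h)) * P
      map_one' := by simp [hS6]
      map_mul' := fun h h' => by
        rw [cut _ _ (hwF _), mul_assoc (S _), ← mul_assoc (X _), hS5, ← mul_assoc, ← mul_assoc,
          hS2, mul_assoc _ _ (X (i h')), ← map_mul X, ← map_mul i, ← mul_assoc, ← mul_assoc, hYi,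
          one_mul, ← map_mul, _root_.mul_inv_rev] }
  letI : MulAction D N := MulAction.compHom N ((conjAut f).comp d)
  have hsm : ∀ (g : D) (x : N), f (g • x) = d g * f x * (d g)⁻¹ := fun g x => map_conjAut f _ _
  haveI : Nonempty n := by
    by_contra h
    haveI := not_nonempty_iff.1 h
    exact hr (by rw [← trace_one, ← hQP, trace_mul_comm]; simp [trace])
  have hn := hX.card_ne_zero hN
  have hu : ∀ g A, u g * (Q * A * P) * u g⁻¹ = Q * (X (d g) * A * X (d g)⁻¹) * P := fun g A => by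
    change Q * X (d g) * P * (Q * A * P) * (Q * X (d g⁻¹) * P) = _
    rw [cut _ _ (hS4 _ _), cut' _ _ (hS4 _ _), map_inv]
  obtain ⟨μ, hμ⟩ := exists_linear_of_dualBasis hD u hr (Ω := N) (fun x => Q * X (f x) * P)
    (fun x => Q * (((Fintype.card N : k)⁻¹ * Fintype.card n) • X (f x)⁻¹) * P)
    (fun g x => by rw [hu, hsm, map_mul, map_mul])
    (fun g x => by
      rw [hu, hsm, mul_smul_comm, smul_mul_assoc, ← map_mul, ← map_mul]
      congr 4; group)
    (fun y => by
      have := congrArg (fun A => Q * (((Fintype.card N : k)⁻¹) • A) * P) (hX (P * y * Q))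
      simp only [smul_smul, inv_mul_cancel₀ hN, one_smul, MonoidHom.comp_apply, map_inv,
        Finset.smul_sum, Matrix.mul_sum, Matrix.sum_mul, Matrix.mul_smul, Matrix.smul_mul] at this
      rw [← Matrix.mul_assoc, ← Matrix.mul_assoc, hQP, Matrix.one_mul, Matrix.mul_assoc y, hQP,
        Matrix.mul_one] at this
      conv_rhs => rw [← this]
      refine Finset.sum_congr rfl fun x _ => ?_
      rw [Matrix.mul_smul, Matrix.smul_mul, mul_smul_comm, trace_smul, smul_eq_mul,
        ← Matrix.mul_assoc y, trace_mul_comm]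
      simp only [Matrix.mul_assoc, mul_assoc])
    (fun x hx => by
      obtain ⟨c, rfl⟩ := (hj x).1 fun g => by
        have := hsm g x
        rw [hx, eq_mul_inv_iff_mul_eq] at this
        exact this.symm
      refine ⟨Y (a c) o o, ?_⟩
      rw [← hQF, ← hFP, Matrix.mul_assoc Q, hF, hS1, ← Matrix.mul_assoc, Matrix.mul_assoc Q, hS2,
        single_mul_mul_single, one_mul, mul_one, ← mul_one (Y (a c) o o), ← smul_eq_mul,
        ← smul_single, map_smul, Matrix.mul_smul, Matrix.smul_mul, ← hF, hQF, hQP, smul_eq_mul,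
        mul_one])
    w α (fun h g => by
      change Q * (S (Y h⁻¹) * X (i h)) * P * (Q * X (d g) * P) =
        Q * X (d (α h g)) * P * (Q * (S (Y h⁻¹) * X (i h)) * P)
      rw [cut _ _ (hwF _), cut _ _ (hS4 _ _), mul_assoc, ← map_mul, hα, map_mul, ← mul_assoc,
        ← hS4, mul_assoc])
  refine ⟨μ, fun c => hμ _ _ ?_ ?_, fun h l₁ l₂ h1 h2 h3 => ?_⟩
  · ext g
    apply hd
    have := hα (a c) g
    rw [hfac, ← (hj _).2 ⟨c, rfl⟩, mul_left_inj] at this
    exact this.symm
  · change Q * (S (Y (a c)⁻¹) * X (i (a c))) * P = _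
    rw [hfac, hS1, hYi, hS6, one_smul]
  · have h4 : l₂ • Y h⁻¹ = 1 := by rw [← hYi h, h3, mul_smul_comm, mul_one]
    have hl : l₂ ≠ 0 := fun h0 => by simp [h0] at h4
    rw [hμ h (l₁ * l₂⁻¹) h1, inv_mul_cancel_right₀ hl]
    change Q * (S (Y h⁻¹) * X (i h)) * P = _
    rw [h2, mul_smul_comm, mul_one, ← hS6, ← h4, map_smul, Matrix.mul_smul, Matrix.smul_mul,
      Matrix.mul_smul, Matrix.smul_mul, smul_smul, inv_mul_cancel_right₀ hl]

end Alg

variable {p : ℕ} [hp : Fact p.Prime] {M : Ideal AlgInt}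

theorem exists_red_matrix (M : Ideal AlgInt) {G : Type*} [Group G] [Finite G] {χ : G → ℂ}
    (hχ : IsCharacter G χ) {N : Type*} [Group N] [Fintype N] {f : N →* G}
    (hf : IsIrrCharacter N (χ ∘ f)) : ∃ (n : ℕ) (X : G →* Matrix (Fin n) (Fin n) (ResK M)),
      IsOrthRep (X.comp f) ∧ ∀ g, (X g).trace = red M (χ g) := by
  obtain ⟨n, R, hR⟩ := hχ.exists_latC (M := M)
  have h1 : ∀ g, ((R g).trace : ℂ) = χ g := fun g => by
    rw [← hR, character_latC]
    exact AddMonoidHom.map_trace (locO M).subtype _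
  have h2 : IsOrthRep (matMap (R.comp f) (locO M).subtype) := isOrthRep_of_isIrr (by
    convert hf using 2 with x
    rw [Function.comp_apply, ← h1]
    exact (AddMonoidHom.map_trace (locO M).subtype _).symm)
  refine ⟨n, matMap R (IsLocalRing.residue _),
    (h2.of_map Subtype.val_injective).map IsLocalRing.residue_surjective, fun g => ?_⟩
  rw [← h1, red_coe]
  exact (AddMonoidHom.map_trace (IsLocalRing.residue (locO M)) _).symm

theorem exists_teich_hom (hM : IsPModular p M) {H : Type*} [Group H] [Finite H]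
    (μ : H →* ResK M) : ∃ ν : H →* ℂˣ, ∀ h, (ν h : ℂ) = teich p M (μ h) := by
  haveI := hM.charP
  obtain ⟨e, m, hm, he⟩ := Nat.exists_eq_pow_mul_and_not_dvd (Nat.card_pos (α := H)).ne' p
    hp.out.ne_one
  have h1 : ∀ h, μ h ^ m = 1 := fun h => by
    have : (μ h ^ m - 1) ^ p ^ e = 0 := by
      rw [sub_pow_char_pow, ← pow_mul, mul_comm, ← he, ← map_pow, pow_card_eq_one', map_one,
        one_pow, sub_self]
    exact sub_eq_zero.1 (pow_eq_zero_iff (pow_ne_zero e hp.out.ne_zero) |>.1 this)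
  let ν : H →* ℂ :=
    { toFun := fun h => teich p M (μ h)
      map_one' := by rw [map_one, teich_one hM]
      map_mul' := fun a b => by rw [map_mul, teich_mul hM hm (h1 a) (h1 b)] }
  exact ⟨ν.toHomUnits, fun h => rfl⟩

variable {N C E H D : Type*} [Group N] [Finite N] [Group C] [Finite C] [Group E] [Finite E]
  [Group H] [Finite H] [CommGroup D] [Finite D]

/-- **Dade–Glauberman–Nagao.**  Let `N` be a normal `p'`-subgroup of `E`, `D` an abelian
`p`-subgroup normalized by the image of `H`, with fixed points `C` on `N`.  If `χ` extends `θ` and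
`ξ` extends the Glauberman correspondent of `θ`, then the central characters of `χ` and `ξ` on
`p'`-elements differ by a linear character of `H / C`. -/
theorem exists_linear_of_glauberman (hD : IsPGroup p D) {f : N →* E} [IsNormalEmb f] {i : H →* E}
    {a : C →* H} [IsNormalEmb a] {j : C →* N} (hfac : ∀ c, i (a c) = f (j c)) {d : D →* E}
    (hd : Function.Injective d) {α : H →* MulAut D} (hα : ∀ h g, i h * d g = d (α h g) * i h)
    (hj : ∀ x, (∀ g, d g * f x = f x * d g) ↔ x ∈ j.range) (hN : ¬ p ∣ Nat.card N)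
    (hC : ¬ p ∣ Nat.card C) {χ : E → ℂ} (hχ : IsCharacter E χ) (hχ' : IsIrrCharacter N (χ ∘ f))
    {ξ : H → ℂ} (hξ : IsCharacter H ξ) (hξ' : IsIrrCharacter C (ξ ∘ a))
    (he : ¬ p ∣ ipNat ((χ ∘ f) ∘ j) (ξ ∘ a)) :
    ∃ μ : H →* ℂˣ, (∀ c, μ (a c) = 1) ∧ ∀ (z : H) (l₁ l₂ : ℂ) (m : ℕ), ¬ p ∣ m → l₁ ^ m = 1 →
      l₂ ^ m = 1 → α z = 1 → (∀ x, χ (i z * x) = l₁ * χ x) → (∀ y, ξ (z * y) = l₂ * ξ y) →
      μ z * l₂ = l₁ := by
  obtain ⟨M, hM⟩ := exists_isPModular hp.out
  haveI := hM.charP
  letI := Fintype.ofFinite N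
  letI := Fintype.ofFinite C
  letI := Fintype.ofFinite D
  obtain ⟨n, X, hX, hX'⟩ := exists_red_matrix M hχ hχ'
  obtain ⟨m, Y, hY, hY'⟩ := exists_red_matrix M hξ hξ'
  have hN' : (Fintype.card N : ResK M) ≠ 0 := by
    rw [← Nat.card_eq_fintype_card]; exact hM.natCast_ne_zero hN
  have hC' : (Fintype.card C : ResK M) ≠ 0 := by
    rw [← Nat.card_eq_fintype_card]; exact hM.natCast_ne_zero hC
  have hO : ∀ x, χ x ∈ locO M := fun x => mem_locO_of_isIntegral (hχ.isIntegral x)
  have hO' : ∀ x, ξ x ∈ locO M := fun x => mem_locO_of_isIntegral (hξ.isIntegral x)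
  obtain ⟨μ, h1, h2⟩ := exists_linear_of_isOrthRep hD hfac hd hα hj hX hY hN' hC' (by
    have e1 : ∑ c, ξ (a c)⁻¹ * χ (f (j c)) =
        ((Nat.card C * ipNat ((χ ∘ f) ∘ j) (ξ ∘ a) : ℕ) : ℂ) := by
      rw [Nat.cast_mul, (hχ'.isCharacter.comp j).ipNat_cast hξ'.isCharacter, ip_def,
        mul_inv_cancel_left₀ (Nat.cast_ne_zero.2 Nat.card_pos.ne')]
      exact Finset.sum_congr rfl fun c _ => by rw [hξ.isGen.apply_inv, mul_comm]; rfl
    simp only [hX', hY']
    rw [← Finset.sum_congr rfl fun c _ => red_mul (hO' _) (hO _),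
      ← red_sum fun c _ => mul_mem (hO' _) (hO _), e1, red_natCast]
    exact hM.natCast_ne_zero fun h => (hp.out.dvd_mul.1 h).elim hC he)
  obtain ⟨ν, hν⟩ := exists_teich_hom hM μ
  refine ⟨ν, fun c => Units.ext (by rw [hν, h1, teich_one hM, Units.val_one]),
    fun z l₁ l₂ m hm hl₁ hl₂ hz hz₁ hz₂ => ?_⟩
  have hm0 := ne_zero_of_not_dvd hm
  have o₁ := mem_locO_of_pow_eq_one (M := M) hm0 hl₁
  have o₂ := mem_locO_of_pow_eq_one (M := M) hm0 hl₂
  have h3 := h2 z (red M l₁) (red M l₂) hz
    (hX.eq_of_trace hN' fun x => by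
      rw [MonoidHom.comp_apply, ← map_mul, hX', hz₁, red_mul o₁ (hO _), smul_mul_assoc, one_mul,
        trace_smul, hX', smul_eq_mul])
    (hY.eq_of_trace hC' fun x => by
      rw [MonoidHom.comp_apply, ← map_mul, hY', hz₂, red_mul o₂ (hO' _), smul_mul_assoc, one_mul,
        trace_smul, hY', smul_eq_mul])
  have r₂ : red M l₂ ^ m = 1 := by rw [← red_pow o₂, hl₂, red_one]
  have r₁ : red M l₁ ^ m = 1 := by rw [← red_pow o₁, hl₁, red_one]
  have r : μ z ^ m = 1 := by rw [← r₁, ← h3, mul_pow, r₂, mul_one]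
  rw [hν, ← teich_red hM hm hl₂, ← teich_mul hM hm r r₂, h3, teich_red hM hm hl₁]

end Cfsg

set_option linter.all false in
theorem Cfsg.Rz.Mod_Dade_0 : True := by
  have := @_root_.Cfsg.IsOrthRep.eq_def.{0, 0, 0}
  have := @_root_.Cfsg.IsOrthRep.eq_1.{0, 0, 0}
  have := @_root_.Cfsg.IsOrthRep.fun_cases
  trivial
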