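import Cfsg.Agent.Char.Basic

/-!
# A nilpotent operator whose stable endomorphisms are scalars has one Jordan block of `p'`-size
-/

set_option autoImplicit false
set_option linter.unusedSectionVars false

namespace Cfsg

open Module

section Jordan
variable {K : Type*} [Field K] {V : Type*} [AddCommGroup V] [Module K V] [FiniteDimensional K V]

theorem finrank_range_pow_eq (T : End K V) (i : ℕ) :
    finrank K (LinearMap.range (T ^ i)) = finrank K (LinearMap.range (T ^ (i + 1))) +
      finrank K (LinearMap.ker T ⊓ LinearMap.range (T ^ i) : Submodule K V) := by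
  have h := (T.domRestrict (LinearMap.range (T ^ i))).finrank_range_add_finrank_ker
  rw [LinearMap.range_domRestrict, LinearMap.ker_domRestrict, ← LinearMap.range_comp,
    ← End.mul_eq_comp, ← pow_succ'] at h
  rw [← h]
  congr 1
  have e : (LinearMap.ker T).comap (LinearMap.range (T ^ i)).subtype =
      (LinearMap.ker T ⊓ LinearMap.range (T ^ i)).comap (LinearMap.range (T ^ i)).subtype := by
    ext x; simp
  rw [e]
  exact (Submodule.comapSubtypeEquivOfLe inf_le_right).finrank_eq

theorem exists_jordan_block {p : ℕ} [hp : Fact p.Prime] [CharP K p] {T : End K V}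
    (hT : IsNilpotent T) (hn : (finrank K V : K) ≠ 0) :
    ∃ j, ¬ p ∣ j + 1 ∧ ∃ u, (T ^ (j + 1)) u = 0 ∧ (T ^ j) u ∉ LinearMap.range (T ^ (j + 1)) := by
  by_contra hc
  push Not at hc
  have hk : ∀ j, ¬ p ∣ j + 1 → (LinearMap.ker T ⊓ LinearMap.range (T ^ (j + 1)) : Submodule K V) =
      LinearMap.ker T ⊓ LinearMap.range (T ^ j) := by
    intro j hj
    refine le_antisymm (inf_le_inf_left _ ?_) ?_
    · rintro _ ⟨u, rfl⟩
      exact ⟨T u, by rw [pow_succ, End.mul_apply]⟩
    · rintro _ ⟨h1, u, rfl⟩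
      exact ⟨h1, hc j hj u (by rw [pow_succ', End.mul_apply]; exact h1)⟩
  have h1 : ∀ m s, s ≤ p → finrank K (LinearMap.range (T ^ (p * m))) =
      finrank K (LinearMap.range (T ^ (p * m + s))) +
        s * finrank K (LinearMap.ker T ⊓ LinearMap.range (T ^ (p * m)) : Submodule K V) ∧
      (s < p → (LinearMap.ker T ⊓ LinearMap.range (T ^ (p * m + s)) : Submodule K V) =
        LinearMap.ker T ⊓ LinearMap.range (T ^ (p * m))) := by
    intro m s
    induction s with
    | zero => simp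
    | succ s ih =>
      intro hs
      obtain ⟨e1, e2⟩ := ih (by omega)
      refine ⟨?_, fun hs' => ?_⟩
      · rw [e1, finrank_range_pow_eq T (p * m + s), e2 (by omega), add_assoc (p * m)]; ring
      · rw [← add_assoc, hk, e2 (by omega)]
        rw [add_assoc, Nat.dvd_add_right (dvd_mul_right p m)]
        exact Nat.not_dvd_of_pos_of_lt (by omega) hs'
  have h2 : ∀ m, (finrank K (LinearMap.range (T ^ (p * m))) : K) = finrank K V := by
    intro m
    induction m with
    | zero => rw [mul_zero, pow_zero, End.one_eq_id, LinearMap.range_id, finrank_top]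
    | succ m ih =>
      rw [← ih, (h1 m p le_rfl).1, mul_add, mul_one]
      simp
  obtain ⟨N, hN⟩ := hT
  have h3 : T ^ (p * N) = 0 := by rw [mul_comm, pow_mul, hN, zero_pow hp.out.ne_zero]
  apply hn
  rw [← h2 N, h3, LinearMap.range_zero, finrank_bot, Nat.cast_zero]

theorem pow_mul_sub_mul_pow {A : Type*} [Ring A] {T y : A} (h : (T * y - y * T) * T = T * (T * y - y * T))
    (m : ℕ) : T ^ (m + 1) * y - y * T ^ (m + 1) = (m + 1) • ((T * y - y * T) * T ^ m) := by
  induction m with
  | zero => simp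
  | succ m ih =>
    have : T ^ (m + 1 + 1) * y - y * T ^ (m + 1 + 1) =
        T * (T ^ (m + 1) * y - y * T ^ (m + 1)) + (T * y - y * T) * T ^ (m + 1) := by
      rw [pow_succ' T (m + 1)]; noncomm_ring
    rw [this, ih, mul_smul_comm, ← mul_assoc, ← h, mul_assoc, ← pow_succ', succ_nsmul _ (m + 1)]

/-- If every endomorphism commuting with the nilpotent `T` is a scalar modulo commutators with `T`,
and `p ∤ dim V`, some layer `(ker T ∩ im T ^ j) / (ker T ∩ im T ^ (j + 1))` is a line. -/
theorem exists_jordan_line {p : ℕ} [hp : Fact p.Prime] [CharP K p] {T : End K V}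
    (hT : IsNilpotent T) (hn : (finrank K V : K) ≠ 0)
    (h : ∀ x : End K V, x * T = T * x → ∃ (c : K) (y : End K V), x = c • 1 + (T * y - y * T)) :
    ∃ (j : ℕ) (l : V →ₗ[K] K), (∀ u, l ((T ^ (j + 1)) u) = 0) ∧
      (∃ u, (T ^ (j + 1)) u = 0 ∧ l ((T ^ j) u) ≠ 0) ∧
      ∀ u u', (T ^ (j + 1)) u = 0 → (T ^ (j + 1)) u' = 0 →
        ∃ w, l ((T ^ j) u') • (T ^ j) u - l ((T ^ j) u) • (T ^ j) u' = (T ^ (j + 1)) w := by
  obtain ⟨j, hj, u0, hu0, hv0⟩ := exists_jordan_block (p := p) hT hn
  obtain ⟨l, hl1, hl2⟩ := Submodule.exists_dual_map_eq_bot_of_notMem hv0 inferInstance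
  have hl : ∀ u, l ((T ^ (j + 1)) u) = 0 := fun u => by
    have : l ((T ^ (j + 1)) u) ∈ (LinearMap.range (T ^ (j + 1))).map l := ⟨_, ⟨u, rfl⟩, rfl⟩
    rwa [hl2] at this
  refine ⟨j, l, hl, ⟨u0, hu0, hl1⟩, ?_⟩
  let x : End K V := ∑ a ∈ Finset.range (j + 1), (l ∘ₗ (T ^ a)).smulRight ((T ^ (j - a)) u0)
  have hx : ∀ w, x w = ∑ a ∈ Finset.range (j + 1), l ((T ^ a) w) • (T ^ (j - a)) u0 := fun w => by
    simp [x, LinearMap.sum_apply]
  have hxT : x * T = T * x := by
    ext w
    rw [End.mul_apply, End.mul_apply, hx, hx, map_sum, Finset.sum_range_succ,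
      Finset.sum_range_succ', ← End.mul_apply (T ^ j), ← pow_succ, hl, zero_smul, add_zero,
      map_smul, Nat.sub_zero, ← End.mul_apply T (T ^ j), ← pow_succ', hu0, smul_zero, add_zero]
    refine Finset.sum_congr rfl fun a ha => ?_
    have ha' := Finset.mem_range.1 ha
    rw [map_smul, ← End.mul_apply (T ^ a), ← pow_succ, ← End.mul_apply T, ← pow_succ',
      show j - (a + 1) + 1 = j - a by omega]
  obtain ⟨c, y, hxy⟩ := h x hxT
  have hz : (T * y - y * T) * T = T * (T * y - y * T) := by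
    have : T * y - y * T = x - c • 1 := by rw [hxy]; abel
    rw [this, sub_mul, mul_sub, hxT, smul_mul_assoc, mul_smul_comm, one_mul, mul_one]
  have hj' : ((j + 1 : ℕ) : K) ≠ 0 := by rwa [Ne, CharP.cast_eq_zero_iff K p]
  have key : ∀ u, (T ^ (j + 1)) u = 0 → l ((T ^ j) u) • (T ^ j) u0 - c • (T ^ j) u ∈
      LinearMap.range (T ^ (j + 1)) := by
    intro u hu
    have e1 : x ((T ^ j) u) = l ((T ^ j) u) • (T ^ j) u0 := by
      rw [hx, Finset.sum_range_succ', pow_zero, End.one_apply, Nat.sub_zero,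
        Finset.sum_eq_zero, zero_add]
      intro a _
      rw [← End.mul_apply (T ^ (a + 1)), ← pow_add, show a + 1 + j = a + (j + 1) by omega, pow_add,
        End.mul_apply, hu, map_zero, map_zero, zero_smul]
    have e2 := congrArg (fun f : End K V => f u) (pow_mul_sub_mul_pow hz j)
    simp only [LinearMap.sub_apply, End.mul_apply, hu, map_zero, sub_zero, LinearMap.smul_apply]
      at e2
    refine ⟨((j + 1 : ℕ) : K)⁻¹ • y u, ?_⟩
    rw [map_smul, e2, ← e1, hxy, ← Nat.cast_smul_eq_nsmul K, smul_smul, inv_mul_cancel₀ hj',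
      one_smul]
    simp
  have hc : c = l ((T ^ j) u0) := by
    by_contra hne
    have := key u0 hu0
    rw [← sub_smul] at this
    exact hv0 ((Submodule.smul_mem_iff _ (sub_ne_zero.2 (Ne.symm hne))).1 this)
  intro u u' hu hu'
  have h1 := Submodule.smul_mem _ (c⁻¹ * l ((T ^ j) u')) (key u hu)
  have h2 := Submodule.smul_mem _ (c⁻¹ * l ((T ^ j) u)) (key u' hu')
  have hc0 : c ≠ 0 := hc ▸ hl1
  obtain ⟨w, hw⟩ := Submodule.sub_mem _ h2 h1
  refine ⟨w, ?_⟩
  rw [hw]
  simp only [smul_sub, smul_smul]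
  rw [mul_right_comm c⁻¹ _ c, mul_right_comm c⁻¹ _ c, inv_mul_cancel₀ hc0, one_mul, one_mul,
    mul_right_comm c⁻¹ (l ((T ^ j) u))]
  abel

end Jordan

end Cfsg
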