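import Cfsg.Agent.Mod.DadeA
import Cfsg.Agent.Grp.Frattini

/-!
# The generic element `∑ X_g (g - 1)` of the group algebra of an abelian `p`-group
-/

set_option autoImplicit false
set_option linter.unusedSectionVars false
set_option linter.unusedVariables false

namespace Cfsg

open MvPolynomial MonoidAlgebra

variable {k : Type*} [Field k] {D : Type*} [CommGroup D] [Fintype D] {p : ℕ} [hp : Fact p.Prime]
  [CharP k p]

/-- The augmentation of a group algebra. -/
noncomputable abbrev augAlg (R D : Type*) [CommRing R] [Monoid D] : R[D] →ₐ[R] R :=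
  MonoidAlgebra.lift R R D 1

theorem pow_eq_augAlg {R : Type*} [CommRing R] [CharP R p] {e : ℕ} (hD : ∀ g : D, g ^ p ^ e = 1)
    (a : R[D]) : a ^ p ^ e = algebraMap R R[D] (augAlg R D a ^ p ^ e) := by
  haveI : CharP R[D] p := charP_of_injective_algebraMap (R := R) (fun a b h => by
    simpa using congrArg (augAlg R D) h) p
  induction a using MonoidAlgebra.induction_linear with
  | zero => simp [zero_pow (pow_ne_zero e hp.out.ne_zero)]
  | add a b ha hb => rw [add_pow_char_pow, ha, hb, map_add, add_pow_char_pow, map_add]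
  | single g r => simp [single_pow, hD]

/-- The generic operator `∑ X_g (τ g - 1)`. -/
noncomputable def genOp {M : Type*} [AddCommGroup M] [Module (MvPolynomial D k) M]
    (τ : D → M → M) (x : M) : M := ∑ g, (X g : MvPolynomial D k) • (τ g x - x)

theorem genOp_eq {M : Type*} [AddCommGroup M] [Module (MvPolynomial D k) M]
    (τ : Representation (MvPolynomial D k) D M) (x : M) : genOp (k := k) (fun g => τ g) x =
      τ.asAlgebraHom (∑ g, (single g (X g) - single 1 (X g))) x := by
  simp [genOp, LinearMap.sum_apply, smul_sub]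

theorem sum_X_mul_C_ne_zero {χ : D → k} {g : D} (h : χ g ≠ 0) :
    (∑ g, X g * C (χ g) : MvPolynomial D k) ≠ 0 := by
  classical
  intro h0
  apply h
  have := congrArg (eval (Pi.single g (1 : k))) h0
  simpa [Pi.single_apply] using this

theorem exists_genOp_of_deriv {M : Type*} [AddCommGroup M] [Module (MvPolynomial D k) M]
    (τ : Representation (MvPolynomial D k) D M) {e : ℕ} (hD : ∀ g : D, g ^ p ^ e = 1)
    (d : M →ₗ[MvPolynomial D k] M) {χ : D → k} {g₀ : D} (h : χ g₀ ≠ 0) {x : M}
    (hx : ∀ g, d (τ g x) = (C (χ g) : MvPolynomial D k) • τ g x + τ g (d x))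
    (h0 : genOp (k := k) (fun g => τ g) x = 0) :
    ∃ (f : MvPolynomial D k) (y : M), f ≠ 0 ∧ f • x = genOp (k := k) (fun g => τ g) y := by
  set b : (MvPolynomial D k)[D] := ∑ g, single g (X g * C (χ g)) with hb
  have h1 : τ.asAlgebraHom b x + genOp (k := k) (fun g => τ g) (d x) = 0 := by
    have := congrArg d h0
    rw [genOp, map_sum, map_zero] at this
    rw [← this, genOp, hb, map_sum, LinearMap.sum_apply, ← Finset.sum_add_distrib]
    refine Finset.sum_congr rfl fun g _ => ?_
    rw [map_smul, map_sub, hx, τ.asAlgebraHom_single, LinearMap.smul_apply, mul_smul, ← smul_add]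
    congr 1; abel
  have h2 : augAlg _ D b = ∑ g, X g * C (χ g) := by simp [hb]
  obtain ⟨m, hm⟩ : ∃ m, p ^ e = m + 1 := ⟨p ^ e - 1, by
    have := Nat.pos_of_ne_zero (pow_ne_zero e hp.out.ne_zero); omega⟩
  refine ⟨(∑ g, X g * C (χ g)) ^ p ^ e, -τ.asAlgebraHom (b ^ m) (d x),
    pow_ne_zero _ (sum_X_mul_C_ne_zero h), ?_⟩
  have h3 := congrArg (fun a => τ.asAlgebraHom a x) (pow_eq_augAlg hD b)
  simp only [AlgHom.commutes, Module.algebraMap_end_apply, h2] at h3
  rw [← h3, hm, pow_succ, map_mul, Module.End.mul_apply, eq_neg_of_add_eq_zero_left h1, genOp_eq,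
    genOp_eq, map_neg, map_neg, ← Module.End.mul_apply _ _ (d x), ← Module.End.mul_apply _ _ (d x),
    ← map_mul, ← map_mul, mul_comm]

theorem exists_addChar_of_ne_top (hD : IsPGroup p D) {Q : Subgroup D} (hQ : Q ≠ ⊤) :
    ∃ χ : D → k, (∀ a b, χ (a * b) = χ a + χ b) ∧ (∀ a ∈ Q, χ a = 0) ∧ ∃ g, χ g ≠ 0 := by
  obtain ⟨L, hL, hQL⟩ := (eq_top_or_exists_le_coatom Q).resolve_left hQ
  have h1 : Nat.card (D ⧸ L) = Nat.card (Multiplicative (ZMod p)) := by
    rw [← Subgroup.index_eq_card, IsPGroup.index_of_isCoatom hD hL]; simp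
  haveI : Fact (Nat.card (D ⧸ L)).Prime := ⟨by rw [h1]; simpa using hp.out⟩
  let e : (D ⧸ L) ≃* Multiplicative (ZMod p) := mulEquivOfPrimeCardEq rfl h1.symm
  refine ⟨fun g => ZMod.castHom (dvd_refl p) k (e g).toAdd, fun a b => by simp, fun a ha => ?_, ?_⟩
  · simp [(QuotientGroup.eq_one_iff a).2 (hQL ha)]
  · obtain ⟨g, hg⟩ := QuotientGroup.mk_surjective (e.symm (Multiplicative.ofAdd 1))
    exact ⟨g, by simp [hg]⟩

/-- The permutation representation on functions. -/
def funRep (R D Ω : Type*) [CommRing R] [Group D] [MulAction D Ω] : Representation R D (Ω → R) where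
  toFun g := LinearMap.funLeft R R (g⁻¹ • ·)
  map_one' := by ext; simp
  map_mul' a b := by ext; simp [LinearMap.funLeft, mul_smul]

@[simp] theorem funRep_apply {R D Ω : Type*} [CommRing R] [Group D] [MulAction D Ω] (g : D)
    (x : Ω → R) (a : Ω) : funRep R D Ω g x a = x (g⁻¹ • a) := rfl

theorem genOp_add {M : Type*} [AddCommGroup M] [Module (MvPolynomial D k) M]
    (τ : Representation (MvPolynomial D k) D M) (x y : M) : genOp (k := k) (fun g => τ g) (x + y) =
      genOp (k := k) (fun g => τ g) x + genOp (k := k) (fun g => τ g) y := by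
  simp only [genOp_eq, map_add]

theorem genOp_smul {M : Type*} [AddCommGroup M] [Module (MvPolynomial D k) M]
    (τ : Representation (MvPolynomial D k) D M) (f : MvPolynomial D k) (x : M) :
    genOp (k := k) (fun g => τ g) (f • x) = f • genOp (k := k) (fun g => τ g) x := by
  simp only [genOp_eq, map_smul]

/-- On a permutation module the kernel of the generic operator is generically the sum of its image
and the span of the fixed points. -/
theorem exists_genOp_funRep (hD : IsPGroup p D) {Ω : Type*} [Finite Ω] [MulAction D Ω]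
    {x : Ω → MvPolynomial D k} (h0 : genOp (k := k) (fun g => funRep _ D Ω g) x = 0) :
    ∃ (f : MvPolynomial D k) (z y : Ω → MvPolynomial D k), f ≠ 0 ∧
      (∀ a, z a ≠ 0 → ∀ g : D, g • a = a) ∧
      f • x = z + genOp (k := k) (fun g => funRep _ D Ω g) y := by
  classical
  obtain ⟨e, he⟩ := hD.exists_card_eq
  have hD' : ∀ g : D, g ^ p ^ e = 1 := fun g => he ▸ pow_card_eq_one'
  let P : (Ω → MvPolynomial D k) → Prop := fun x =>
    ∃ (f : MvPolynomial D k) (z y : Ω → MvPolynomial D k), f ≠ 0 ∧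
      (∀ a, z a ≠ 0 → ∀ g : D, g • a = a) ∧
      f • x = z + genOp (k := k) (fun g => funRep _ D Ω g) y
  have P0 : P 0 := ⟨1, 0, 0, one_ne_zero, fun a h => (h rfl).elim, by simp [genOp]⟩
  have Padd : ∀ x y, P x → P y → P (x + y) := by
    rintro x x' ⟨f, z, y, hf, hz, h⟩ ⟨f', z', y', hf', hz', h'⟩
    refine ⟨f * f', f' • z + f • z', f' • y + f • y', mul_ne_zero hf hf', fun a ha => ?_, ?_⟩
    · by_cases h1 : z a = 0
      · exact hz' a fun h2 => ha (by simp [h1, h2])
      · exact hz a h1
    · rw [genOp_add, genOp_smul, genOp_smul, smul_add, mul_smul f f' x', h', mul_comm, mul_smul, h,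
        smul_add, smul_add]
      abel
  letI := Fintype.ofFinite (MulAction.orbitRel.Quotient D Ω)
  have hx : x = ∑ ω : MulAction.orbitRel.Quotient D Ω,
      fun a => if Quotient.mk'' a = ω then x a else 0 := by
    ext1 a; simp [Finset.sum_apply]
  change P x
  rw [hx]
  refine Finset.sum_induction _ P Padd P0 fun ω _ => ?_
  obtain ⟨a₀, rfl⟩ := Quotient.mk''_surjective ω
  have hmk : ∀ (g : D) (a : Ω), (Quotient.mk'' (g • a) : MulAction.orbitRel.Quotient D Ω) =
      Quotient.mk'' a := fun g a => Quotient.sound' (MulAction.mem_orbit a g)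
  have hex : ∀ a : Ω, (Quotient.mk'' a : MulAction.orbitRel.Quotient D Ω) = Quotient.mk'' a₀ →
      ∃ g : D, g • a₀ = a := fun a h => Quotient.exact' h
  by_cases hs : MulAction.stabilizer D a₀ = ⊤
  · refine ⟨1, fun a => if Quotient.mk'' a = (Quotient.mk'' a₀ : MulAction.orbitRel.Quotient D Ω)
      then x a else 0, 0, one_ne_zero, fun a ha g => ?_, by rw [one_smul]; simp [genOp]⟩
    obtain ⟨h, rfl⟩ := hex a (by_contra fun h => ha (if_neg h))
    have : ∀ g : D, g • a₀ = a₀ := fun g => MulAction.mem_stabilizer_iff.1 (hs ▸ Subgroup.mem_top g)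
    rw [this, this]
  obtain ⟨χ, hχ, hQ, g₀, hg₀⟩ := exists_addChar_of_ne_top (k := k) hD hs
  let deg : Ω → k := fun a => if h : ∃ g : D, g • a₀ = a then χ h.choose else 0
  have hdeg : ∀ g : D, deg (g • a₀) = χ g := by
    intro g
    have h : ∃ g' : D, g' • a₀ = g • a₀ := ⟨g, rfl⟩
    have h1 := hQ (g⁻¹ * h.choose) (by
      rw [MulAction.mem_stabilizer_iff, mul_smul, h.choose_spec, inv_smul_smul])
    simp only [deg, dif_pos h]
    rw [← mul_inv_cancel_left g h.choose, hχ, h1, add_zero]
  obtain ⟨f, y, hf, h⟩ := exists_genOp_of_deriv (funRep _ D Ω) hD'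
    (LinearMap.pi fun a => (C (deg a) : MvPolynomial D k) • LinearMap.proj a) hg₀
    (x := fun a => if Quotient.mk'' a = (Quotient.mk'' a₀ : MulAction.orbitRel.Quotient D Ω)
      then x a else 0) (fun g => by
      ext1 a
      simp only [LinearMap.pi_apply, LinearMap.smul_apply, LinearMap.proj_apply, funRep_apply,
        Pi.add_apply, Pi.smul_apply, smul_eq_mul]
      split_ifs with ha
      · obtain ⟨h, hh⟩ := hex _ ha
        rw [← add_mul, ← C_add, ← hh, hdeg, ← hχ, ← hdeg, mul_smul, hh, smul_inv_smul]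
      · simp) (by
      ext1 a
      have := congrFun h0 a
      simp only [genOp, Finset.sum_apply, Pi.smul_apply, Pi.sub_apply, funRep_apply, hmk,
        Pi.zero_apply] at this ⊢
      split_ifs with ha
      · exact this
      · simp)
  exact ⟨f, 0, y, hf, fun a h => (h rfl).elim, by rw [h, zero_add]⟩

end Cfsg

set_option linter.all false in
theorem Cfsg.Rz.Mod_DadeB_0 : True := by
  have := @_root_.Cfsg.funRep.eq_def.{0, 0, 0}
  have := @_root_.Cfsg.funRep.eq_1.{0, 0, 0}
  have := @_root_.Cfsg.funRep.fun_cases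
  have := @_root_.Cfsg.genOp.eq_def.{0, 0, 0}
  have := @_root_.Cfsg.genOp.fun_cases
  have := @_root_.Cfsg.augAlg.eq_def.{0, 0}
  have := @_root_.Cfsg.augAlg.eq_1.{0, 0}
  have := @_root_.Cfsg.augAlg.fun_cases
  trivial
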