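import Cfsg.Agent.Mod.DadeB

/-!
# Comparing the two generic operators on `End(W)`
-/

set_option autoImplicit false
set_option linter.unusedSectionVars false
set_option linter.unusedVariables false

namespace Cfsg

open MvPolynomial MonoidAlgebra

variable {k : Type*} [Field k] {D : Type*} [CommGroup D] [Fintype D] {p : ℕ} [hp : Fact p.Prime]
  [CharP k p] {n : Type*} [Fintype n] [DecidableEq n]

/-- Constant matrices. -/
noncomputable def matC (D : Type*) {k : Type*} [Field k] {n : Type*} [Fintype n] [DecidableEq n] :
    Matrix n n k →+* Matrix n n (MvPolynomial D k) := RingHom.mapMatrix C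

theorem matC_apply (m : Matrix n n k) (i j : n) : matC D m i j = C (m i j) := rfl

theorem matC_eq (m : Matrix n n k) : matC D m = m.map C := rfl

/-- The algebra map `k[X_g][D] → Mat(k[X_g])` of a matrix representation. -/
noncomputable def genU (u : D →* Matrix n n k) :
    (MvPolynomial D k)[D] →ₐ[MvPolynomial D k] Matrix n n (MvPolynomial D k) :=
  MonoidAlgebra.lift _ _ D ((matC D).toMonoidHom.comp u)

@[simp] theorem genU_single (u : D →* Matrix n n k) (g : D) (r : MvPolynomial D k) :
    genU u (single g r) = r • matC D (u g) := by simp [genU]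

theorem genU_comm (u : D →* Matrix n n k) (a b : (MvPolynomial D k)[D]) :
    genU u a * genU u b = genU u b * genU u a := by rw [← map_mul, ← map_mul, mul_comm]

theorem genU_algebraMap (u : D →* Matrix n n k) (r : MvPolynomial D k) :
    genU u (algebraMap _ _ r) = r • 1 := by rw [AlgHom.commutes, Algebra.algebraMap_eq_smul_one]

/-- The generic matrix `∑ X_g (u g - 1)`. -/
noncomputable def genMat (u : D →* Matrix n n k) : Matrix n n (MvPolynomial D k) :=
  ∑ g, (X g : MvPolynomial D k) • (matC D (u g) - 1)

theorem genMat_eq (u : D →* Matrix n n k) :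
    genMat u = genU u (∑ g, (single g (X g) - single 1 (X g))) := by
  simp [genMat, smul_sub]

/-- The twist of polynomial matrices along an endomorphism of the group algebra. -/
noncomputable def genTw (u : D →* Matrix n n k)
    (σ : (MvPolynomial D k)[D] →+* (MvPolynomial D k)[D]) :
    Matrix n n (MvPolynomial D k) →+ Matrix n n (MvPolynomial D k) where
  toFun x := ∑ i, ∑ j, Matrix.single i j 1 * genU u (σ (algebraMap _ _ (x i j)))
  map_zero' := by simp
  map_add' x y := by simp [mul_add, Finset.sum_add_distrib]

theorem genMat_induction {P : Matrix n n (MvPolynomial D k) → Prop} (h0 : P 0)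
    (hadd : ∀ x y, P x → P y → P (x + y))
    (h : ∀ (m : Matrix n n k) (r : MvPolynomial D k), P (r • matC D m)) (x) : P x := by
  rw [Matrix.matrix_eq_sum_single x]
  refine Finset.sum_induction _ P hadd h0 fun i _ => Finset.sum_induction _ P hadd h0 fun j _ => ?_
  convert h (Matrix.single i j 1) (x i j) using 1
  simp [matC_eq, Matrix.map_single, Matrix.smul_single]

section Tw
variable {u : D →* Matrix n n k} {σ : (MvPolynomial D k)[D] →+* (MvPolynomial D k)[D]}
  (h1 : ∀ g, σ (single g 1) = single g 1) (h2 : ∀ c : k, σ (single 1 (C c)) = single 1 (C c))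
include h1 h2

theorem genTw_smul (m : Matrix n n k) (r : MvPolynomial D k) :
    genTw u σ (r • matC D m) = matC D m * genU u (σ (algebraMap _ _ r)) := by
  conv_rhs => rw [Matrix.matrix_eq_sum_single (matC D m)]
  simp only [genTw, AddMonoidHom.coe_mk, ZeroHom.coe_mk, Finset.sum_mul]
  refine Finset.sum_congr rfl fun i _ => Finset.sum_congr rfl fun j _ => ?_
  have : (algebraMap _ (MvPolynomial D k)[D]) ((r • matC D m) i j) =
      single 1 (C (m i j)) * algebraMap _ _ r := by
    simp [matC_apply, mul_comm r, single_mul_single]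
  rw [this, map_mul, h2, map_mul, genU_single, ← mul_assoc, map_one, map_one, mul_smul_comm,
    mul_one, Matrix.smul_single, smul_eq_mul, mul_one, matC_apply]

theorem genTw_mul (m : Matrix n n k) (x : Matrix n n (MvPolynomial D k))
    (a : (MvPolynomial D k)[D]) :
    genTw u σ (matC D m * x * genU u a) = matC D m * genTw u σ x * genU u (σ a) := by
  induction x using genMat_induction with
  | h0 => simp
  | hadd x y hx hy => simp only [mul_add, add_mul, map_add, hx, hy]
  | h m' r =>
    induction a using MonoidAlgebra.induction_linear with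
    | zero => simp
    | add a b ha hb => simp only [mul_add, map_add, ha, hb]
    | single g s =>
      have e1 : matC D m * r • matC D m' * genU u (single g s) = (r * s) • matC D (m * m' * u g) := by
        rw [genU_single, map_mul, map_mul, mul_smul_comm, mul_smul_comm, smul_mul_assoc, smul_smul,
          mul_comm s]
      have e2 : (single g s : (MvPolynomial D k)[D]) = single g 1 * algebraMap _ _ s := by
        simp [single_mul_single]
      rw [e1, genTw_smul h1 h2, genTw_smul h1 h2, e2, map_mul σ, h1, map_mul, map_mul, map_mul,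
        map_mul, map_mul, map_mul, genU_single, one_smul]
      have := genU_comm u (single g 1) (σ (algebraMap _ _ r))
      rw [genU_single, one_smul] at this
      simp only [mul_assoc]
      rw [← mul_assoc (matC D (u g)), this, mul_assoc]

theorem genTw_one : genTw u σ 1 = 1 := by
  have := genTw_smul (u := u) h1 h2 1 1
  rwa [map_one, map_one, map_one, map_one, one_smul, one_mul] at this

theorem genTw_genU (a : (MvPolynomial D k)[D]) : genTw u σ (genU u a) = genU u (σ a) := by
  have := genTw_mul (u := u) h1 h2 1 1 a
  rwa [map_one, one_mul, one_mul, genTw_one h1 h2, one_mul, one_mul] at this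

theorem genTw_smul' (r : MvPolynomial D k) (x : Matrix n n (MvPolynomial D k)) :
    genTw u σ (r • x) = genTw u σ x * genU u (σ (algebraMap _ _ r)) := by
  have := genTw_mul (u := u) h1 h2 1 x (algebraMap _ _ r)
  rwa [genU_algebraMap, map_one, one_mul, one_mul, mul_smul_comm, mul_one] at this

end Tw

/-- The endomorphism `X_g ↦ X_g · t g` of the group algebra. -/
noncomputable def genSig (k : Type*) [Field k] (t : D → D) :
    (MvPolynomial D k)[D] →+* (MvPolynomial D k)[D] :=
  (liftNCAlgHom (aeval fun g => single (t g) (X g) : MvPolynomial D k →ₐ[k] (MvPolynomial D k)[D])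
    (of _ D) fun _ _ => Commute.all _ _).toRingHom

theorem genSig_single (t : D → D) (g : D) (r : MvPolynomial D k) : genSig k t (single g r) =
    aeval (fun g => (single (t g) (X g) : (MvPolynomial D k)[D])) r * single g 1 := by
  simp [genSig, liftNC_single]

theorem genSig_one (t : D → D) (g : D) : genSig k t (single g 1) = single g 1 := by
  simp [genSig_single]

theorem genSig_C (t : D → D) (c : k) : genSig k t (single 1 (C c)) = single 1 (C c) := by
  simp [genSig_single, single_mul_single]

theorem genSig_X (t : D → D) (g : D) : genSig k t (algebraMap _ _ (X g : MvPolynomial D k)) =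
    single (t g) (X g) := by
  simp [genSig_single, single_mul_single]

theorem genAlg_ext {B : Type*} [CommRing B] {f f' : (MvPolynomial D k)[D] →+* B}
    (h1 : ∀ g, f (single g 1) = f' (single g 1))
    (h2 : ∀ c : k, f (single 1 (C c)) = f' (single 1 (C c)))
    (h3 : ∀ g, f (single 1 (X g)) = f' (single 1 (X g))) : f = f' := by
  refine MonoidAlgebra.ringHom_ext (fun r => ?_) h1
  exact RingHom.congr_fun (MvPolynomial.ringHom_ext (f := f.comp singleOneRingHom)
    (g := f'.comp singleOneRingHom) h2 h3) r

theorem genSig_genSig {t t' : D → D} (h : ∀ g, t g * t' g = 1) (a : (MvPolynomial D k)[D]) :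
    genSig k t (genSig k t' a) = a := by
  refine RingHom.congr_fun (genAlg_ext (f := (genSig k t).comp (genSig k t')) (f' := RingHom.id _)
    (fun g => ?_) (fun c => ?_) fun g => ?_) a
  · simp [genSig_one]
  · simp [genSig_C]
  · simp [genSig_single, single_mul_single, h]

theorem augAlg_genSig (t : D → D) (a : (MvPolynomial D k)[D]) :
    augAlg _ D (genSig k t a) = augAlg _ D a := by
  refine RingHom.congr_fun (genAlg_ext (f := (augAlg _ D).toRingHom.comp (genSig k t))
    (f' := (augAlg _ D).toRingHom) (fun g => ?_) (fun c => ?_) fun g => ?_) a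
  · simp [genSig_one]
  · simp [genSig_C]
  · simp [genSig_single, single_mul_single]

theorem genTw_genTw (u : D →* Matrix n n k) {t t' : D → D} (h : ∀ g, t g * t' g = 1)
    (x : Matrix n n (MvPolynomial D k)) :
    genTw u (genSig k t) (genTw u (genSig k t') x) = x := by
  induction x using genMat_induction with
  | h0 => simp
  | hadd x y hx hy => simp only [map_add, hx, hy]
  | h m r =>
    have := genTw_mul (u := u) (genSig_one t) (genSig_C t) m 1 (genSig k t' (algebraMap _ _ r))
    rw [mul_one] at this
    rw [genTw_smul (genSig_one _) (genSig_C _), this, genTw_one (genSig_one _) (genSig_C _),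
      genSig_genSig h, genU_algebraMap]
    simp

/-- Conjugation action on polynomial matrices. -/
noncomputable def genConj (u : D →* Matrix n n k) (g : D) (x : Matrix n n (MvPolynomial D k)) :
    Matrix n n (MvPolynomial D k) := matC D (u g) * x * matC D (u g⁻¹)

theorem genTw_genOp (u : D →* Matrix n n k) (x : Matrix n n (MvPolynomial D k)) :
    genTw u (genSig k id) (genOp (k := k) (genConj u) x) =
      genMat u * genTw u (genSig k id) x - genTw u (genSig k id) x * genMat u := by
  simp only [genOp, genMat, map_sum, Finset.sum_mul, Finset.mul_sum, ← Finset.sum_sub_distrib]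
  refine Finset.sum_congr rfl fun g _ => ?_
  have := genTw_mul (u := u) (genSig_one id) (genSig_C id) (u g) x (single g⁻¹ 1)
  rw [genSig_one, genU_single, one_smul] at this
  rw [genTw_smul' (genSig_one _) (genSig_C _), genSig_X, genU_single, map_sub, genConj, this,
    mul_smul_comm, smul_mul_assoc, mul_smul_comm, ← smul_sub, sub_mul, mul_assoc, ← map_mul,
    ← map_mul, id, inv_mul_cancel, map_one, map_one]
  congr 1; noncomm_ring

/-- If the fixed points of the generic conjugation operator are generically scalars modulo its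
image, then the matrices commuting with the generic matrix are scalars modulo commutators. -/
theorem exists_eq_scalar_add_comm (hD : IsPGroup p D) (u : D →* Matrix n n k)
    (hn : (Fintype.card n : k) ≠ 0)
    (H : ∀ x, genOp (k := k) (genConj u) x = 0 → ∃ (f c : MvPolynomial D k) (y : _), f ≠ 0 ∧
      f • x = c • 1 + genOp (k := k) (genConj u) y)
    {x : Matrix n n (MvPolynomial D k)} (hx : x * genMat u = genMat u * x) :
    ∃ (f c : MvPolynomial D k) (y : _), f ≠ 0 ∧ f • x = c • 1 + (genMat u * y - y * genMat u) := by
  obtain ⟨e, he⟩ := hD.exists_card_eq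
  have hD' : ∀ g : D, g ^ p ^ e = 1 := fun g => he ▸ pow_card_eq_one'
  obtain ⟨m, hm⟩ : ∃ m, p ^ e = m + 1 := ⟨p ^ e - 1, by
    have := Nat.pos_of_ne_zero (pow_ne_zero e hp.out.ne_zero); omega⟩
  have hst : ∀ g : D, id g * g⁻¹ = 1 := fun g => mul_inv_cancel g
  have hts : ∀ g : D, g⁻¹ * id g = 1 := fun g => inv_mul_cancel g
  -- transport of `H`
  have key : ∀ x, x * genMat u = genMat u * x → ∃ (f c : MvPolynomial D k) (y y' : _)
      (a : (MvPolynomial D k)[D]), f ≠ 0 ∧
      f • genTw u (genSig k fun g => g⁻¹) x = c • 1 + genOp (k := k) (genConj u) y' ∧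
      f ^ p ^ e • x = genU u (genSig k id (algebraMap _ _ c) * a) +
        (genMat u * y - y * genMat u) := by
    intro x hx
    have h0 : genOp (k := k) (genConj u) (genTw u (genSig k fun g => g⁻¹) x) = 0 := by
      rw [← genTw_genTw u hts (genOp _ _), genTw_genOp, genTw_genTw u hst, hx, sub_self, map_zero]
    obtain ⟨f, c, y, hf, h⟩ := H _ h0
    have h' := congrArg (genTw u (genSig k id)) h
    rw [genTw_smul' (genSig_one _) (genSig_C _), genTw_genTw u hst, map_add, genTw_genOp,
      genTw_smul' (genSig_one _) (genSig_C _), genTw_one (genSig_one _) (genSig_C _),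
      one_mul] at h'
    refine ⟨f, c, genTw u (genSig k id) y * genU u (genSig k id (algebraMap _ _ f) ^ m), y,
      genSig k id (algebraMap _ _ f) ^ m, hf, h, ?_⟩
    have e1 := congrArg (genU u) (pow_eq_augAlg hD' (genSig k id (algebraMap _ _ f)))
    rw [genU_algebraMap, augAlg_genSig, AlgHom.commutes, Algebra.algebraMap_self_apply, hm,
      pow_succ', map_mul] at e1
    rw [← mul_one x, ← mul_smul_comm, hm, ← e1, ← mul_assoc, h', add_mul, map_mul, sub_mul,
      mul_assoc, mul_assoc, mul_assoc, genMat_eq, genU_comm u (∑ g, _) (_ ^ m)]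
  obtain ⟨f, c, y, -, a, hf, -, h⟩ := key x hx
  set b := genSig k id (algebraMap _ _ c) * a
  set b' := b - algebraMap _ _ (augAlg _ D b) with hb'
  obtain ⟨f', c', y', z, a', hf', h1, h'⟩ := key (genU u b') (by rw [genMat_eq, genU_comm])
  have hc' : c' = 0 := by
    rw [genTw_genU (genSig_one _) (genSig_C _)] at h1
    have h2 : IsNilpotent (genU u (genSig k (fun g => g⁻¹) b')) := ⟨p ^ e, by
      rw [← map_pow, pow_eq_augAlg hD', augAlg_genSig, hb', map_sub, AlgHom.commutes]
      simp [zero_pow (pow_ne_zero e hp.out.ne_zero)]⟩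
    have h3 := congrArg Matrix.trace h1
    have h4 : (genOp (k := k) (genConj u) z).trace = 0 := by
      simp only [genOp, Matrix.trace_sum, Matrix.trace_smul, Matrix.trace_sub, genConj]
      refine Finset.sum_eq_zero fun g _ => ?_
      rw [Matrix.trace_mul_comm, ← mul_assoc, ← map_mul, ← map_mul, inv_mul_cancel, map_one,
        map_one, one_mul, sub_self, smul_zero]
    rw [Matrix.trace_smul, (Matrix.isNilpotent_trace_of_isNilpotent h2).eq_zero, smul_zero,
      Matrix.trace_add, h4, add_zero, Matrix.trace_smul, Matrix.trace_one, smul_eq_mul] at h3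
    refine (mul_eq_zero.1 h3.symm).resolve_right fun h5 => hn ?_
    exact C_injective D k (by simpa using h5)
  rw [hc', map_zero, map_zero, zero_mul, map_zero, zero_add] at h'
  refine ⟨f' ^ p ^ e * f ^ p ^ e, f' ^ p ^ e * augAlg _ D b, y' + f' ^ p ^ e • y,
    mul_ne_zero (pow_ne_zero _ hf') (pow_ne_zero _ hf), ?_⟩
  rw [hb', map_sub, genU_algebraMap, smul_sub, sub_eq_iff_eq_add] at h'
  rw [mul_smul, h, smul_add, h', mul_smul, mul_add, add_mul, mul_smul_comm, smul_mul_assoc, smul_sub]
  abel

end Cfsg

set_option linter.all false in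
theorem Cfsg.Rz.Mod_DadeC_0 : True := by
  have := @_root_.Cfsg.genMat.eq_def.{0, 0, 0}
  have := @_root_.Cfsg.genMat.fun_cases
  have := @_root_.Cfsg.matC.eq_def.{0, 0, 0}
  have := @_root_.Cfsg.matC.eq_1.{0, 0, 0}
  have := @_root_.Cfsg.matC.fun_cases
  have := @_root_.Cfsg.genSig.eq_def.{0, 0}
  have := @_root_.Cfsg.genSig.fun_cases
  have := @_root_.Cfsg.genTw.eq_def.{0, 0, 0}
  have := @_root_.Cfsg.genTw.fun_cases
  have := @_root_.Cfsg.genU.eq_def.{0, 0, 0}
  have := @_root_.Cfsg.genU.fun_cases
  have := @_root_.Cfsg.genConj.eq_def.{0, 0, 0}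
  have := @_root_.Cfsg.genConj.fun_cases
  trivial
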