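import Cfsg.Agent.Mod.DadeC

/-!
# Dade's splitting theorem for abelian `p`-groups, in matrix form
-/

set_option autoImplicit false
set_option linter.unusedSectionVars false
set_option linter.unusedVariables false

namespace Cfsg

open MvPolynomial MonoidAlgebra Matrix

theorem exists_gcd_of_fg {R : Type*} [CommRing R] [IsDomain R] [IsGCDMonoid R] {I : Ideal R}
    (hI : I.FG) : ∃ g : R, (∀ x ∈ I, g ∣ x) ∧ ∀ a b : R, (∀ x ∈ I, a ∣ b * x) → a ∣ b * g := by
  obtain ⟨inst⟩ : Nonempty (NormalizedGCDMonoid R) := inferInstance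
  obtain ⟨s, rfl⟩ := hI
  refine ⟨s.gcd id, fun x hx => ?_, fun a b h => ?_⟩
  · rw [← Ideal.mem_span_singleton]
    exact Ideal.span_le.2 (fun y hy => Ideal.mem_span_singleton.2 (Finset.gcd_dvd (f := id) hy)) hx
  · exact (Finset.dvd_gcd fun y hy => h y (Ideal.subset_span hy)).trans
      (Finset.gcd_mul_left' (s := s) (f := id) b).dvd

/-- A semilinear action on a module of generic rank one gives a cocycle with values in the ring. -/
theorem exists_cocycle_of_rank_one {R : Type*} [CommRing R] [IsDomain R] [IsGCDMonoid R]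
    [IsNoetherianRing R] {Γ : Type*} [Monoid Γ] (σ : Γ → R ≃+* R)
    (hσ1 : ∀ r, σ 1 r = r) (hσ : ∀ a b r, σ (a * b) r = σ a (σ b r))
    {U : Type*} [AddCommGroup U] [Module R U] (L : U →ₗ[R] R) {u₀ : U} (h0 : L u₀ ≠ 0)
    (act : Γ → U → U) (h1 : ∀ u, act 1 u = u) (hact : ∀ a b u, act (a * b) u = act a (act b u))
    (h : ∀ γ u u', σ γ (L u') * L (act γ u) = σ γ (L u) * L (act γ u')) :
    ∃ m : Γ → R, m 1 = 1 ∧ (∀ a b, m (a * b) = m a * σ a (m b)) ∧
      ∀ γ c, (∀ r, σ γ r = r) → (∀ u, act γ u = c • u) → m γ = c := by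
  obtain ⟨g, hg1, hg2⟩ := exists_gcd_of_fg (IsNoetherian.noetherian (LinearMap.range L))
  have hg0 : g ≠ 0 := fun h => h0 (by simpa [h] using hg1 _ ⟨u₀, rfl⟩)
  have hσ0 : ∀ γ r, r ≠ 0 → σ γ r ≠ 0 := fun γ r hr => by simpa using hr
  have key : ∀ γ, ∃ m, ∀ u, L (act γ u) * σ γ g = m * g * σ γ (L u) := by
    intro γ
    have h2 := hg2 ((σ γ).symm (σ γ (L u₀) * g)) ((σ γ).symm (L (act γ u₀))) (by
      rintro _ ⟨u, rfl⟩
      rw [← map_dvd_iff (σ γ), RingEquiv.apply_symm_apply, map_mul, RingEquiv.apply_symm_apply,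
        mul_comm _ (σ γ (L u)), ← h]
      exact mul_dvd_mul_left _ (hg1 _ ⟨_, rfl⟩))
    rw [← map_dvd_iff (σ γ), RingEquiv.apply_symm_apply, map_mul, RingEquiv.apply_symm_apply] at h2
    obtain ⟨m, hm⟩ := h2
    refine ⟨m, fun u => mul_left_cancel₀ (hσ0 γ _ h0) ?_⟩
    rw [← mul_assoc, h, mul_assoc, hm]; ring
  choose m hm using key
  refine ⟨m, ?_, fun a b => ?_, fun γ c hγ hc => ?_⟩
  · have := hm 1 u₀
    rw [h1, hσ1, hσ1] at this
    exact mul_right_cancel₀ (mul_ne_zero hg0 h0) (by rw [← mul_assoc, ← this]; ring)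
  · have e1 := hm (a * b) u₀
    have e2 := hm a (act b u₀)
    have e3 := congrArg (σ a) (hm b u₀)
    rw [hact, hσ, hσ] at e1
    rw [map_mul, map_mul, map_mul] at e3
    refine mul_right_cancel₀ (mul_ne_zero (mul_ne_zero hg0 (hσ0 a _ (hσ0 b _ h0))) (hσ0 a _ hg0)) ?_
    linear_combination (-σ a g) * e1 + σ a (σ b g) * e2 + m a * g * e3
  · have := hm γ u₀
    rw [hc, hγ, hγ, map_smul, smul_eq_mul] at this
    exact mul_right_cancel₀ (mul_ne_zero hg0 h0) (by rw [← mul_assoc, ← this]; ring)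

section Frac
variable {R K : Type*} [CommRing R] [IsDomain R] [Field K] [Algebra R K] [IsFractionRing R K]

theorem exists_denom_fun {ι : Type*} [Finite ι] (v : ι → K) :
    ∃ (s : R) (v₀ : ι → R), s ≠ 0 ∧ ∀ i, algebraMap R K (v₀ i) = algebraMap R K s * v i := by
  obtain ⟨b, hb⟩ := IsLocalization.exist_integer_multiples_of_finite (nonZeroDivisors R) v
  choose v₀ hv₀ using hb
  exact ⟨b, v₀, nonZeroDivisors.ne_zero b.2, fun i => by rw [hv₀, Algebra.smul_def]⟩

variable {n : Type*} [Fintype n] [DecidableEq n]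

/-- `exists_jordan_line` for a matrix over a domain. -/
theorem exists_jordan_line_matrix (K : Type*) [Field K] [Algebra R K] [IsFractionRing R K]
    {p : ℕ} [hp : Fact p.Prime] [CharP K p] {T : Matrix n n R}
    (hT : IsNilpotent T) (hn : (Fintype.card n : K) ≠ 0)
    (h : ∀ x : Matrix n n R, x * T = T * x → ∃ (f c : R) (y : Matrix n n R), f ≠ 0 ∧
      f • x = c • 1 + (T * y - y * T)) :
    ∃ (j : ℕ) (l : n → R), (∀ u, l ⬝ᵥ (T ^ (j + 1)) *ᵥ u = 0) ∧
      (∃ u, (T ^ (j + 1)) *ᵥ u = 0 ∧ l ⬝ᵥ (T ^ j) *ᵥ u ≠ 0) ∧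
      ∀ u u', (T ^ (j + 1)) *ᵥ u = 0 → (T ^ (j + 1)) *ᵥ u' = 0 → ∃ (f : R) (w : n → R), f ≠ 0 ∧
        f • ((l ⬝ᵥ (T ^ j) *ᵥ u') • (T ^ j) *ᵥ u - (l ⬝ᵥ (T ^ j) *ᵥ u) • (T ^ j) *ᵥ u') =
          (T ^ (j + 1)) *ᵥ w := by
  have hinj := IsFractionRing.injective R K
  let φ : Matrix n n R →+* Module.End K (n → K) :=
    (toLinAlgEquiv' (R := K) (n := n)).toRingEquiv.toRingHom.comp (algebraMap R K).mapMatrix
  have hφ : ∀ A v, φ A v = A.map (algebraMap R K) *ᵥ v := fun A v => rfl
  have hφ' : ∀ A (v : n → R), φ A (algebraMap R K ∘ v) = algebraMap R K ∘ (A *ᵥ v) :=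
    fun A v => by ext i; rw [hφ, Function.comp_apply, RingHom.map_mulVec]
  have hφs : ∀ (r : R) A, φ (r • A) = algebraMap R K r • φ A := fun r A => by
    refine LinearMap.ext fun v => ?_
    rw [hφ, LinearMap.smul_apply, hφ, ← smul_mulVec]
    congr 1; ext i j; simp
  have hφi : Function.Injective φ := (toLinAlgEquiv' (R := K) (n := n)).injective.comp
    (Matrix.map_injective hinj)
  have hvi : ∀ v w : n → R, algebraMap R K ∘ v = algebraMap R K ∘ w → v = w := fun v w h =>
    funext fun i => hinj (congrFun h i)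
  have hs0 : ∀ s : R, s ≠ 0 → algebraMap R K s ≠ 0 := fun s hs => by simpa using hs
  obtain ⟨j, l, hl1, ⟨u₀, hu₀, hl2⟩, hl3⟩ := exists_jordan_line (p := p) (hT.map φ)
    (by simpa using hn) (fun x hx => by
      obtain ⟨A, rfl⟩ := (toLinAlgEquiv' (R := K) (n := n)).surjective x
      obtain ⟨s, A₀, hs, hA⟩ := exists_denom_fun (R := R) fun ij : n × n => A ij.1 ij.2
      have e : φ (Matrix.of fun i j => A₀ (i, j)) = algebraMap R K s • toLinAlgEquiv' A := by
        rw [← map_smul]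
        exact congrArg toLinAlgEquiv' (by ext i j; simp [hA])
      obtain ⟨f, c, y, hf, hy⟩ := h (Matrix.of fun i j => A₀ (i, j)) (hφi (by
        rw [map_mul, map_mul, e, smul_mul_assoc, hx, mul_smul_comm]))
      have := congrArg φ hy
      rw [hφs, e, smul_smul, map_add, hφs, map_sub, map_mul, map_mul, map_one] at this
      refine ⟨(algebraMap R K f * algebraMap R K s)⁻¹ * algebraMap R K c,
        (algebraMap R K f * algebraMap R K s)⁻¹ • φ y, ?_⟩
      rw [mul_smul, mul_smul_comm, smul_mul_assoc, ← smul_sub (_ : K)⁻¹ (φ T * φ y), ← smul_add,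
        ← this, smul_smul, inv_mul_cancel₀ (mul_ne_zero (hs0 _ hf) (hs0 _ hs)), one_smul])
  obtain ⟨s, l₀, hs, hl₀⟩ := exists_denom_fun (R := R) fun i => l (Pi.single i 1)
  have hl : ∀ v : n → R, algebraMap R K (l₀ ⬝ᵥ v) = algebraMap R K s * l (algebraMap R K ∘ v) := by
    intro v
    rw [LinearMap.pi_apply_eq_sum_univ, Finset.mul_sum, dotProduct, map_sum]
    refine Finset.sum_congr rfl fun i _ => ?_
    rw [map_mul, hl₀, Function.comp_apply, smul_eq_mul]
    have : (fun j => if i = j then (1 : K) else 0) = Pi.single i 1 := by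
      ext j; simp [Pi.single_apply, eq_comm]
    rw [this]; ring
  have hvec : ∀ v : n → K, ∃ (t : R) (v₀ : n → R), t ≠ 0 ∧
      algebraMap R K ∘ v₀ = algebraMap R K t • v := fun v => by
    obtain ⟨t, v₀, ht, hv⟩ := exists_denom_fun (R := R) v
    exact ⟨t, v₀, ht, funext hv⟩
  simp only [← map_pow] at hl1 hu₀ hl2 hl3
  refine ⟨j, l₀, fun u => hinj ?_, ?_, fun u u' hu hu' => ?_⟩
  · rw [hl, ← hφ', hl1, mul_zero, map_zero]
  · obtain ⟨t, v₀, ht, hv⟩ := hvec u₀
    refine ⟨v₀, hvi _ _ ?_, fun h => ?_⟩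
    · rw [← hφ', hv, map_smul, hu₀, smul_zero]; ext; simp
    · have := hl ((T ^ j) *ᵥ v₀)
      rw [h, map_zero, ← hφ', hv, map_smul, map_smul, smul_eq_mul] at this
      exact mul_ne_zero (hs0 _ hs) (mul_ne_zero (hs0 _ ht) hl2) this.symm
  · obtain ⟨w, hw⟩ := hl3 (algebraMap R K ∘ u) (algebraMap R K ∘ u')
      (by rw [hφ', hu]; ext; simp) (by rw [hφ', hu']; ext; simp)
    obtain ⟨t, w₀, ht, hw₀⟩ := hvec w
    refine ⟨t, s • w₀, ht, hvi _ _ ?_⟩
    rw [mulVec_smul]
    ext i
    have e1 := congrFun (hφ' (T ^ (j + 1)) w₀) i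
    have e2 := congrFun hw i
    rw [hw₀, map_smul] at e1
    simp only [hφ', Function.comp_apply, Pi.smul_apply, Pi.sub_apply, smul_eq_mul, map_mul,
      map_sub, hl] at e1 e2 ⊢
    rw [← e1, ← e2]; ring

end Frac

variable {k : Type*} [Field k] {D : Type*} [CommGroup D] [Fintype D] {p : ℕ} [hp : Fact p.Prime]
  [CharP k p] {n : Type*} [Fintype n] [DecidableEq n]

theorem exists_linear_of_generic (hD : IsPGroup p D) (u : D →* Matrix n n k)
    (hn : (Fintype.card n : k) ≠ 0)
    (H : ∀ x, genOp (k := k) (genConj u) x = 0 → ∃ (f c : MvPolynomial D k) (y : _), f ≠ 0 ∧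
      f • x = c • 1 + genOp (k := k) (genConj u) y)
    {Γ : Type*} [Monoid Γ] (w : Γ →* Matrix n n k) (α : Γ →* MulAut D)
    (hw : ∀ γ g, w γ * u g = u (α γ g) * w γ) :
    ∃ μ : Γ →* k, ∀ γ c, α γ = 1 → w γ = c • 1 → μ γ = c := by
  obtain ⟨e, he⟩ := hD.exists_card_eq
  have hD' : ∀ g : D, g ^ p ^ e = 1 := fun g => he ▸ pow_card_eq_one'
  have hT : IsNilpotent (genMat u) := ⟨p ^ e, by
    rw [genMat_eq, ← map_pow, pow_eq_augAlg hD']
    simp [zero_pow (pow_ne_zero e hp.out.ne_zero)]⟩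
  haveI : CharP (FractionRing (MvPolynomial D k)) p :=
    charP_of_injective_algebraMap (IsFractionRing.injective (MvPolynomial D k) _) p
  obtain ⟨j, l, hl1, ⟨u₀, hu₀, hl2⟩, hl3⟩ := exists_jordan_line_matrix
    (FractionRing (MvPolynomial D k)) (p := p) hT (by
      rwa [Ne, CharP.cast_eq_zero_iff _ p, ← CharP.cast_eq_zero_iff k p])
    fun x hx => exists_eq_scalar_add_comm hD u hn H hx
  let σ : Γ → MvPolynomial D k ≃+* MvPolynomial D k := fun γ =>
    (renameEquiv k (α γ).toEquiv).toRingEquiv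
  have hσ : ∀ γ r, σ γ r = rename (α γ) r := fun γ r => rfl
  let act : Γ → (n → MvPolynomial D k) → n → MvPolynomial D k := fun γ v =>
    matC D (w γ) *ᵥ (σ γ ∘ v)
  have hmap : ∀ γ (A : Matrix n n (MvPolynomial D k)) v, σ γ ∘ (A *ᵥ v) =
      A.map (σ γ) *ᵥ (σ γ ∘ v) := fun γ A v =>
    funext fun i => RingHom.map_mulVec (σ γ).toRingHom A v i
  have hC : ∀ γ (m : Matrix n n k), (matC D m).map (σ γ) = matC D m := fun γ m => by
    ext1 i j; simp [matC_apply, hσ]
  have hT1 : ∀ γ, matC D (w γ) * (genMat u).map (σ γ) = genMat u * matC D (w γ) := by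
    intro γ
    have : (genMat u).map (σ γ) = ∑ g, (X (α γ g) : MvPolynomial D k) • (matC D (u g) - 1) := by
      ext1 i j
      simp [genMat, Matrix.sum_apply, matC_apply, hσ, one_apply, apply_ite (rename _)]
    rw [this, genMat, Finset.mul_sum, Finset.sum_mul, ← Equiv.sum_comp (α γ).toEquiv
      (fun g => (X g : MvPolynomial D k) • (matC D (u g) - 1) * matC D (w γ))]
    refine Finset.sum_congr rfl fun g _ => ?_
    rw [mul_smul_comm, smul_mul_assoc, mul_sub, sub_mul, ← map_mul, hw, map_mul, mul_one, one_mul]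
    rfl
  have hT2 : ∀ γ i v, act γ ((genMat u ^ i) *ᵥ v) = (genMat u ^ i) *ᵥ act γ v := by
    intro γ i v
    induction i with
    | zero => simp
    | succ i ih =>
      rw [pow_succ', ← mulVec_mulVec, ← mulVec_mulVec, ← ih]
      simp only [act]
      rw [hmap, mulVec_mulVec, hT1, mulVec_mulVec]
  have hsm : ∀ γ (r : MvPolynomial D k) v, act γ (r • v) = σ γ r • act γ v := fun γ r v => by
    simp only [act]
    rw [← mulVec_smul]; congr 1; ext1 i; simp
  have hsub : ∀ γ v v', act γ (v - v') = act γ v - act γ v' := fun γ v v' => by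
    simp only [act]
    rw [← mulVec_sub]; congr 1; ext1 i; simp
  let U := LinearMap.ker (genMat u ^ (j + 1)).mulVecLin
  let L : U →ₗ[MvPolynomial D k] MvPolynomial D k :=
    (dotProductBilin (MvPolynomial D k) (MvPolynomial D k) l) ∘ₗ (genMat u ^ j).mulVecLin ∘ₗ U.subtype
  have hL : ∀ v : U, L v = l ⬝ᵥ (genMat u ^ j) *ᵥ v := fun v => rfl
  have h0 : ∀ γ, act γ 0 = 0 := fun γ => by simpa using hsub γ 0 0
  obtain ⟨m, hm1, hm2, hm3⟩ := exists_cocycle_of_rank_one σ
    (fun r => by simp [hσ]) (fun a b r => by simp [hσ, rename_rename]) L (u₀ := ⟨u₀, hu₀⟩) hl2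
    (fun γ v => ⟨act γ v, by
      have : (genMat u ^ (j + 1)) *ᵥ v = 0 := v.2
      change _ *ᵥ _ = 0
      rw [← hT2, this, h0]⟩)
    (fun v => Subtype.ext (by ext1 i; simp [act, hσ]))
    (fun a b v => Subtype.ext (by
      simp only [act]
      rw [hmap, hC, mulVec_mulVec, ← map_mul, ← map_mul]
      congr 1; ext1 i; simp [hσ, rename_rename]))
    (fun γ v v' => by
      obtain ⟨f, y, hf, hy⟩ := hl3 v v' v.2 v'.2
      have := congrArg (fun z => l ⬝ᵥ act γ z) hy
      simp only [hsm, hsub, hT2, hl1, dotProduct_smul, dotProduct_sub, smul_eq_mul] at this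
      rw [hL, hL, hL, hL]
      exact sub_eq_zero.1 ((mul_eq_zero.1 this).resolve_left (by simpa using hf)))
  refine ⟨⟨⟨fun γ => constantCoeff (m γ), by simp [hm1]⟩, fun a b => by
    simp [hm2, hσ, constantCoeff_rename]⟩, fun γ c hγ hc => ?_⟩
  have := hm3 γ (C c) (fun r => by simp [hσ, hγ]) fun v => Subtype.ext (by
    ext1 i
    simp [act, hc, hσ, hγ, matC_eq, mulVec, dotProduct, one_apply, apply_ite C])
  simp [this]

/-- Dade's splitting theorem: if the conjugation module `End(W)` is a retract of a permutation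
module whose fixed points act as scalars, the projective action on `W` of a group normalizing `D`
has trivial factor set. -/
theorem exists_linear_of_dualBasis (hD : IsPGroup p D) (u : D →* Matrix n n k)
    (hn : (Fintype.card n : k) ≠ 0) {Ω : Type*} [Fintype Ω] [MulAction D Ω]
    (a b : Ω → Matrix n n k) (ha : ∀ (g : D) x, a (g • x) = u g * a x * u g⁻¹)
    (hb : ∀ (g : D) x, b (g • x) = u g * b x * u g⁻¹)
    (hab : ∀ y, ∑ x, (y * b x).trace • a x = y)
    (hfix : ∀ x, (∀ g : D, g • x = x) → ∃ c : k, a x = c • 1)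
    {Γ : Type*} [Monoid Γ] (w : Γ →* Matrix n n k) (α : Γ →* MulAut D)
    (hw : ∀ γ g, w γ * u g = u (α γ g) * w γ) :
    ∃ μ : Γ →* k, ∀ γ c, α γ = 1 → w γ = c • 1 → μ γ = c := by
  refine exists_linear_of_generic hD u hn (fun x hx => ?_) w α hw
  let s : Matrix n n (MvPolynomial D k) → Ω → MvPolynomial D k := fun y t =>
    (y * matC D (b t)).trace
  let r : (Ω → MvPolynomial D k) →ₗ[MvPolynomial D k] Matrix n n (MvPolynomial D k) :=
    ∑ t, (LinearMap.proj t).smulRight (matC D (a t))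
  have hr : ∀ z, r z = ∑ t, z t • matC D (a t) := fun z => by simp [r, LinearMap.sum_apply]
  have hCs : ∀ (c : k) (m : Matrix n n k), matC D (c • m) = (C c : MvPolynomial D k) • matC D m :=
    fun c m => by ext1 i j; simp [matC_apply]
  have hrs : ∀ y, r (s y) = y := by
    intro y
    induction y using genMat_induction with
    | h0 => simp [hr, s]
    | hadd x y hx hy =>
      rw [show s (x + y) = s x + s y from funext fun t => by simp [s, add_mul], map_add, hx, hy]
    | h m f =>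
      conv_rhs => rw [← hab m]
      rw [hr, map_sum, Finset.smul_sum]
      refine Finset.sum_congr rfl fun t _ => ?_
      simp only [s]
      rw [hCs, smul_mul_assoc, trace_smul, ← map_mul, smul_eq_mul, mul_smul, matC_eq (m * b t),
        ← AddMonoidHom.map_trace]
  have h1 : genOp (k := k) (fun g => funRep _ D Ω g) (s x) = 0 := by
    ext1 t
    have := congrArg (fun y => s y t) hx
    simp only [s, genOp, Finset.sum_mul, trace_sum, smul_mul_assoc, trace_smul, sub_mul, trace_sub,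
      zero_mul, trace_zero, genConj] at this
    simp only [s, genOp, Finset.sum_apply, Pi.smul_apply, Pi.sub_apply, funRep_apply, hb,
      Pi.zero_apply, inv_inv, map_mul]
    rw [← this]
    refine Finset.sum_congr rfl fun g _ => ?_
    rw [← mul_assoc, trace_mul_comm]
    simp only [mul_assoc]
  obtain ⟨f, z, y, hf, hz, h⟩ := exists_genOp_funRep hD h1
  have h2 : ∀ t, ∃ c : MvPolynomial D k, z t • matC D (a t) = c • 1 := fun t => by
    by_cases h0 : z t = 0
    · exact ⟨0, by simp [h0]⟩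
    · obtain ⟨c, hc⟩ := hfix t (hz t h0)
      exact ⟨z t * C c, by rw [hc, hCs, map_one, mul_smul]⟩
  choose c hc using h2
  refine ⟨f, ∑ t, c t, r y, hf, ?_⟩
  rw [← hrs x, ← map_smul, h, map_add, hr z, Finset.sum_smul, Finset.sum_congr rfl fun t _ => hc t]
  congr 1
  simp only [genOp, map_sum, map_smul, map_sub]
  refine Finset.sum_congr rfl fun g _ => ?_
  congr 2
  rw [hr, hr, genConj, Finset.mul_sum, Finset.sum_mul, ← Equiv.sum_comp (MulAction.toPerm g)]
  refine Finset.sum_congr rfl fun t _ => ?_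
  simp [ha]

end Cfsg
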